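/-
S1904 package ME (coordinator helper32): `n ≥ 3` with level `n - 2` inside `M` is impossible.
-/
import Cfsg.Agent.Lib.Helper32.Scn.Tools

set_option autoImplicit false

universe u

namespace Cfsg.Agent.Lib.Helper22.Scn

open Cfsg.Agent.Lib.Helper32.Scn

theorem lemME : Cfsg.Agent.Lib.Helper32.Scn.LemME.{u} := by
  intro X _ _ A φ M n hM hT hn hL
  have hB : BCtx X A φ := hM.c.b
  have hMab : ∀ a ∈ M, ∀ b ∈ M, a * b = b * a := hM.c.ab
  have hMn : M.Normal := hM.c.nrm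
  have hMne : M ≠ ⊥ := by
    intro h
    obtain ⟨m, hm, hmV⟩ := hM.c.ne
    rw [h, Subgroup.mem_bot] at hm
    exact hmV (hm ▸ (omZ X).one_mem)
  have hinvol : ∀ b ∈ M, b * b = 1 → b ∈ omZ X :=
    (hB.abel M hMn hM.c.inv hMab hMne).2
  have Vsq : ∀ v ∈ omZ X, v * v = 1 := fun v hv => omZ_sq hv
  -- powers of two
  have e1 : 2 ^ (n - 1) = 2 * 2 ^ (n - 2) := by
    have : n - 1 = (n - 2) + 1 := by omega
    rw [this, pow_succ]; ring
  have e2 : 2 ^ n = 2 * 2 ^ (n - 1) := by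
    have : n = (n - 1) + 1 := by omega
    conv_lhs => rw [this]
    rw [pow_succ]; ring
  have e3 : 2 ^ (n - 2) = 2 * 2 ^ (n - 3) := by
    have : n - 2 = (n - 3) + 1 := by omega
    rw [this, pow_succ]; ring
  have hpow_mul : ∀ (k : ℕ), ∀ a ∈ M, ∀ b ∈ M, (a * b) ^ k = a ^ k * b ^ k := by
    intro k a ha b hb'
    exact (show Commute a b from hMab a ha b hb').mul_pow k
  obtain ⟨c, hc⟩ : ∃ c : X → X → X, ∀ x m, c x m = x * m * x⁻¹ * m⁻¹ := ⟨_, fun _ _ => rfl⟩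
  obtain ⟨π, hπ⟩ : ∃ π : X → X, ∀ m, π m = m ^ (2 ^ (n - 1)) := ⟨_, fun _ => rfl⟩
  obtain ⟨g, hg⟩ : ∃ g : X → X → X, ∀ x m, g x m = (c x m) ^ (2 ^ (n - 2)) :=
    ⟨_, fun _ _ => rfl⟩
  -- facts on `c`
  have c_mem : ∀ x, ∀ m ∈ M, c x m ∈ M := by
    intro x m hm; rw [hc]
    exact M.mul_mem (hMn.conj_mem m hm x) (M.inv_mem hm)
  have c_mul : ∀ x, ∀ m ∈ M, ∀ m' ∈ M, c x (m * m') = c x m * c x m' := by
    intro x m hm m' hm'
    have h1 := hMab _ (c_mem x m' hm') _ (M.inv_mem hm)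
    rw [hc] at h1
    rw [hc, hc, hc]
    calc x * (m * m') * x⁻¹ * (m * m')⁻¹
        = (x * m * x⁻¹) * ((x * m' * x⁻¹ * m'⁻¹) * m⁻¹) := by group
      _ = (x * m * x⁻¹) * (m⁻¹ * (x * m' * x⁻¹ * m'⁻¹)) := by rw [h1]
      _ = (x * m * x⁻¹ * m⁻¹) * (x * m' * x⁻¹ * m'⁻¹) := by group
  have c_lvn : ∀ x, ∀ m ∈ M, (c x m) ^ (2 ^ (n - 1)) = 1 := by
    intro x m hm; rw [hc]; exact hT.lvn x m hm
  have c_sq : ∀ x, ∀ m ∈ M, ∃ u ∈ M, c x m = u * u := by
    intro x m hm; rw [hc]; exact hT.sqc x m hm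
  have c_phi : ∀ x m, c (φ x) (φ m) = φ (c x m) := by
    intro x m; rw [hc, hc]; simp [map_mul, map_inv]
  have c_prod : ∀ x y, ∀ m ∈ M, c (x * y) m = c x (c y m) * c x m * c y m := by
    intro x y m hm
    have hp : y * m * y⁻¹ = c y m * m := by rw [hc]; group
    have h1 : c (x * y) m = c x (y * m * y⁻¹) * c y m := by
      rw [hc, hc, hc]; group
    rw [h1, hp, c_mul x _ (c_mem y m hm) _ hm]
  have c_M : ∀ x ∈ M, ∀ m ∈ M, c x m = 1 := by
    intro x hx m hm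
    rw [hc, hMab x hx m hm]; group
  -- facts on `π`
  have pi_mem : ∀ m ∈ M, π m ∈ omZ X := by
    intro m hm
    apply hinvol _ (by rw [hπ]; exact M.pow_mem hm _)
    rw [hπ, ← pow_add, ← two_mul, ← e2]
    exact hM.exp m hm
  have pi_mul : ∀ m ∈ M, ∀ m' ∈ M, π (m * m') = π m * π m' := by
    intro m hm m' hm'; rw [hπ, hπ, hπ]; exact hpow_mul _ m hm m' hm'
  have pi_phi : ∀ m, π (φ m) = φ (π m) := by
    intro m; rw [hπ, hπ, map_pow]
  have pi_ker : ∀ m ∈ M, ∀ m' ∈ M, π m = π m' → ∃ u ∈ M, m = u * u * m' := by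
    intro m hm m' hm' h
    have h1 : (m * m'⁻¹) ^ (2 ^ (n - 1)) = 1 := by
      rw [hpow_mul _ m hm _ (M.inv_mem hm'), inv_pow, ← hπ, ← hπ, h, mul_inv_cancel]
    obtain ⟨u, hu, hu2⟩ := hM.sqr _ (M.mul_mem hm (M.inv_mem hm')) h1
    exact ⟨u, hu, by rw [← hu2]; group⟩
  -- facts on `g`
  have g_sq : ∀ x, ∀ u ∈ M, g x (u * u) = 1 := by
    intro x u hu
    rw [hg, c_mul x u hu u hu, ← pow_two, ← pow_mul, ← e1]
    exact c_lvn x u hu
  have g_mem : ∀ x, ∀ m ∈ M, g x m ∈ omZ X := by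
    intro x m hm
    apply hinvol _ (by rw [hg]; exact M.pow_mem (c_mem x m hm) _)
    rw [hg, ← pow_add, ← two_mul, ← e1]
    exact c_lvn x m hm
  have g_mul : ∀ x, ∀ m ∈ M, ∀ m' ∈ M, g x (m * m') = g x m * g x m' := by
    intro x m hm m' hm'
    rw [hg, hg, hg, c_mul x m hm m' hm']
    exact hpow_mul _ _ (c_mem x m hm) _ (c_mem x m' hm')
  have g_pi : ∀ x, ∀ m ∈ M, ∀ m' ∈ M, π m = π m' → g x m = g x m' := by
    intro x m hm m' hm' h
    obtain ⟨u, hu, hu2⟩ := pi_ker m hm m' hm' h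
    rw [hu2, g_mul x _ (M.mul_mem hu hu) _ hm', g_sq x u hu, one_mul]
  have g_prod : ∀ x y, ∀ m ∈ M, g (x * y) m = g x m * g y m := by
    intro x y m hm
    obtain ⟨u, hu, hu2⟩ := c_sq y m hm
    have h0 : (c x (c y m)) ^ (2 ^ (n - 2)) = 1 := by
      have h00 := g_sq x u hu
      rw [hg, ← hu2] at h00
      exact h00
    rw [hg, c_prod x y m hm,
      hpow_mul _ _ (M.mul_mem (c_mem x _ (c_mem y m hm)) (c_mem x m hm)) _ (c_mem y m hm),
      hpow_mul _ _ (c_mem x _ (c_mem y m hm)) _ (c_mem x m hm), h0, one_mul, ← hg, ← hg]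
  have g_phi : ∀ x m, g (φ x) (φ m) = φ (g x m) := by
    intro x m; rw [hg, hg, c_phi, map_pow]
  have hsqM : ∀ x : X, x * x ∈ M := by
    intro x
    have hL' : ∀ y : X, Lv M (n - 1 - 1) y → y ∈ M := by
      have h0 : n - 1 - 1 = n - 2 := by omega
      rw [h0]; exact hL
    exact hT.c2 (n - 1) (by omega) hL' x (hT.lvn x)
  have g_idem : ∀ x, ∀ m ∈ M, ∃ u ∈ M, π u = g x m ∧ g x u = g x m := by
    intro x m hm
    obtain ⟨u, hu, hu2⟩ := c_sq x m hm
    have h1 : c (x * x) m = 1 := c_M _ (hsqM x) m hm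
    rw [c_prod x x m hm, hu2, c_mul x u hu u hu] at h1
    have hcu := c_mem x u hu
    have hq : (c x u * (u * u)) * (c x u * (u * u)) = 1 := by
      have hcomm := hMab _ (M.mul_mem hu hu) _ hcu
      calc (c x u * (u * u)) * (c x u * (u * u))
          = c x u * ((u * u) * c x u) * (u * u) := by group
        _ = c x u * (c x u * (u * u)) * (u * u) := by rw [hcomm]
        _ = c x u * c x u * (u * u) * (u * u) := by group
        _ = 1 := h1
    have hq2 : (c x u * (u * u)) ^ (2 ^ (n - 2)) = 1 := by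
      rw [e3, pow_mul, pow_two, hq, one_pow]
    rw [hpow_mul _ _ hcu _ (M.mul_mem hu hu), ← pow_two, ← pow_mul, ← e1, ← hg, ← hπ] at hq2
    have hpu : π u = g x m := by
      rw [hπ, hg, hu2, e1, pow_mul, pow_two]
    have hgu : g x u = π u := by
      have hV := pi_mem u hu
      have h3 : g x u = (π u)⁻¹ := eq_inv_of_mul_eq_one_left hq2
      rw [h3, omZ_inv hV]
    exact ⟨u, hu, hpu, by rw [hgu, hpu]⟩
  -- the induced maps on `omZ X`
  have hpre0 : ∀ v : X, ∃ m : X, v ∈ omZ X → (m ∈ M ∧ π m = v) := by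
    intro v
    by_cases hv : v ∈ omZ X
    · obtain ⟨m, hm, h⟩ := hM.top v hv
      exact ⟨m, fun _ => ⟨hm, by rw [hπ]; exact h⟩⟩
    · exact ⟨1, fun h => absurd h hv⟩
  choose pre hpre using hpre0
  obtain ⟨Γ, hΓ⟩ : ∃ Γ : X → X → X, ∀ x v, Γ x v = g x (pre v) := ⟨_, fun _ _ => rfl⟩
  have Γ_pi : ∀ x, ∀ m ∈ M, Γ x (π m) = g x m := by
    intro x m hm
    have h := hpre (π m) (pi_mem m hm)
    rw [hΓ]; exact g_pi x _ h.1 _ hm h.2
  have Γ_mem : ∀ x, ∀ v ∈ omZ X, Γ x v ∈ omZ X := by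
    intro x v hv; rw [hΓ]; exact g_mem x _ (hpre v hv).1
  have Γ_mul : ∀ x, ∀ v ∈ omZ X, ∀ v' ∈ omZ X, Γ x (v * v') = Γ x v * Γ x v' := by
    intro x v hv v' hv'
    have h := hpre v hv
    have h' := hpre v' hv'
    have h2 : v * v' = π (pre v * pre v') := by rw [pi_mul _ h.1 _ h'.1, h.2, h'.2]
    rw [h2, Γ_pi x _ (M.mul_mem h.1 h'.1), g_mul x _ h.1 _ h'.1, hΓ, hΓ]
  have Γ_prod : ∀ x y, ∀ v ∈ omZ X, Γ (x * y) v = Γ x v * Γ y v := by
    intro x y v hv; rw [hΓ, hΓ, hΓ]; exact g_prod x y _ (hpre v hv).1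
  have Γ_phi : ∀ x, ∀ v ∈ omZ X, Γ (φ x) (φ v) = φ (Γ x v) := by
    intro x v hv
    have h := hpre v hv
    have hφm : φ (pre v) ∈ M := hM.c.inv φ hB.φmem _ h.1
    have h2 : φ v = π (φ (pre v)) := by rw [pi_phi, h.2]
    rw [h2, Γ_pi _ _ hφm, g_phi, hΓ]
  have Γ_idem : ∀ x, ∀ v ∈ omZ X, Γ x (Γ x v) = Γ x v := by
    intro x v hv
    obtain ⟨u, hu, hu1, hu2⟩ := g_idem x _ (hpre v hv).1
    rw [hΓ x v, ← hu1, Γ_pi x u hu, hu2, hu1]
  have Γ_ker : ∀ x, (∀ v ∈ omZ X, Γ x v = 1) → x ∈ M := by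
    intro x h
    apply hL
    intro m hm
    have h2 := h _ (pi_mem m hm)
    rw [Γ_pi x m hm, hg, hc] at h2
    exact h2
  -- `X ≠ M`
  obtain ⟨a0, b0, hab0⟩ := hB.hyp.na
  have hex : ∃ x : X, x ∉ M := by
    by_contra hall
    push_neg at hall
    exact hab0 (hMab a0 (hall a0) b0 (hall b0))
  by_cases hcase : ∀ x : X, x ∉ M → ∀ v ∈ omZ X, Γ x v = v
  · -- `M` has index 2
    obtain ⟨x0, hx0⟩ := hex
    have hidx : M.index = 2 := by
      rw [Subgroup.index_eq_two_iff]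
      refine ⟨x0, fun b => ?_⟩
      by_cases hbM : b ∈ M
      · refine Or.inr ⟨hbM, fun h => hx0 ?_⟩
        have h2 := M.mul_mem (M.inv_mem hbM) h
        rw [inv_mul_cancel_left] at h2
        exact h2
      · refine Or.inl ⟨?_, hbM⟩
        apply Γ_ker
        intro v hv
        rw [Γ_prod b x0 v hv, hcase b hbM v hv, hcase x0 hx0 v hv, Vsq v hv]
    exact hB.hyp.no_index_two M hM.c.inv hidx
  · push_neg at hcase
    obtain ⟨x, hxM, v, hv, hvne⟩ := hcase
    have hu : ∃ u ∈ omZ X, Γ x u ≠ 1 := by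
      by_contra hno
      push_neg at hno
      exact hxM (Γ_ker x hno)
    obtain ⟨u, hu, hune⟩ := hu
    have hΓv := Γ_mem x v hv
    obtain ⟨a, ha_def⟩ : ∃ a, a = v * Γ x v := ⟨_, rfl⟩
    have haV : a ∈ omZ X := by rw [ha_def]; exact (omZ X).mul_mem hv hΓv
    have ha1 : a ≠ 1 := by
      intro h
      apply hvne
      rw [ha_def] at h
      have h2 : Γ x v = v⁻¹ := eq_inv_of_mul_eq_one_right h
      rw [h2, omZ_inv hv]
    have hea : Γ x a = 1 := by
      rw [ha_def, Γ_mul x v hv _ hΓv, Γ_idem x v hv]; exact Vsq _ hΓv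
    obtain ⟨w, hw_def⟩ : ∃ w, w = Γ x u := ⟨_, rfl⟩
    have hwV : w ∈ omZ X := by rw [hw_def]; exact Γ_mem x u hu
    have hw1 : w ≠ 1 := by rw [hw_def]; exact hune
    have hew : Γ x w = w := by rw [hw_def]; exact Γ_idem x u hu
    obtain ⟨b, hb_def⟩ : ∃ b, b = φ a := ⟨_, rfl⟩
    obtain ⟨cc, hc_def⟩ : ∃ cc, cc = φ b := ⟨_, rfl⟩
    have hbV : b ∈ omZ X := by rw [hb_def]; exact hB.phi_mem haV
    have hcV : cc ∈ omZ X := by rw [hc_def]; exact hB.phi_mem hbV
    have hb1 : b ≠ 1 := by rw [hb_def]; exact hB.phi_ne_one ha1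
    have habc : a * b = cc := by rw [hc_def, hb_def]; exact hB.mul_phi haV
    have hφc : φ cc = a := by rw [hc_def, hb_def]; exact hB.phi3 haV
    have hca : cc ≠ a := by rw [hc_def, hb_def]; exact hB.phi2_ne haV ha1
    have hcb : cc ≠ b := by rw [hc_def]; exact hB.φV b hbV hb1
    have hbc_a : b * cc = a := by
      calc b * cc = b * (a * b) := by rw [habc]
        _ = (b * a) * b := by group
        _ = (a * b) * b := by rw [omZ_comm haV b]
        _ = a * (b * b) := by group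
        _ = a := by rw [Vsq b hbV, mul_one]
    have hac_b : a * cc = b := by
      calc a * cc = a * (a * b) := by rw [habc]
        _ = (a * a) * b := by group
        _ = b := by rw [Vsq a haV, one_mul]
    have hca_b : cc * a = b := by
      calc cc * a = (a * b) * a := by rw [habc]
        _ = a * (b * a) := by group
        _ = a * (a * b) := by rw [omZ_comm haV b]
        _ = (a * a) * b := by group
        _ = b := by rw [Vsq a haV, one_mul]
    have he'b : Γ (φ x) b = 1 := by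
      have h0 := Γ_phi x a haV
      rw [hea, map_one, ← hb_def] at h0
      exact h0
    have hidem := Γ_idem (x * φ x)
    rcases hB.V_cases haV ha1 w hwV with h | h | h | h
    · exact hw1 h
    · rw [h, hea] at hew; exact ha1 hew.symm
    · rw [← hb_def] at h
      rw [h] at hew
      have he'c : Γ (φ x) cc = cc := by
        have h0 := Γ_phi x b hbV
        rw [hew, ← hc_def] at h0
        exact h0
      have he'a : Γ (φ x) a = cc := by
        rw [← hbc_a, Γ_mul (φ x) b hbV cc hcV, he'b, he'c, one_mul]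
      have hec : Γ x cc = b := by
        rw [← habc, Γ_mul x a haV b hbV, hea, hew, one_mul]
      have h1 : Γ (x * φ x) a = cc := by
        rw [Γ_prod x (φ x) a haV, hea, he'a, one_mul]
      have h2 : Γ (x * φ x) cc = a := by
        rw [Γ_prod x (φ x) cc hcV, hec, he'c, hbc_a]
      have h3 := hidem a haV
      rw [h1, h2] at h3
      exact hca h3.symm
    · rw [← hb_def, ← hc_def] at h
      rw [h] at hew
      have he'a : Γ (φ x) a = a := by
        have h0 := Γ_phi x cc hcV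
        rw [hew, hφc] at h0
        exact h0
      have heb : Γ x b = cc := by
        rw [← hac_b, Γ_mul x a haV cc hcV, hea, hew, one_mul]
      have he'c : Γ (φ x) cc = a := by
        rw [← habc, Γ_mul (φ x) a haV b hbV, he'a, he'b, mul_one]
      have h1 : Γ (x * φ x) b = cc := by
        rw [Γ_prod x (φ x) b hbV, heb, he'b, mul_one]
      have h2 : Γ (x * φ x) cc = b := by
        rw [Γ_prod x (φ x) cc hcV, hew, he'c, hca_b]
      have h3 := hidem b hbV
      rw [h1, h2] at h3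
      exact hcb h3.symm

end Cfsg.Agent.Lib.Helper22.Scn
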